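import Cfsg.Agent.Lib.Linear.RegGen2
import Cfsg.Agent.Lib.Linear.FormMax

/-!
# Regular unipotent isometries: the Jordan chain
-/

namespace Cfsg.Lib.Linear

open Matrix Module Cfsg.Geo Cfsg.Lib.Asch
open scoped MatrixGroups

variable {ι : Type} [Fintype ι] [DecidableEq ι] {F : Type*} [Field F]

/-- The Jordan chain of `x` under `u - 1`. -/
def chain (u : GL ι F) (x : ι → F) (k : ℕ) : ι → F := (u.1 - 1) ^ k *ᵥ x

@[simp] theorem chain_zero (u : GL ι F) (x : ι → F) : chain u x 0 = x := by simp [chain]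

theorem chain_succ (u : GL ι F) (x : ι → F) (k : ℕ) :
    chain u x (k + 1) = u.1 *ᵥ chain u x k - chain u x k := by
  rw [chain, pow_succ', ← mulVec_mulVec, sub_mulVec, one_mulVec, chain]

theorem mulVec_chain (u : GL ι F) (x : ι → F) (k : ℕ) :
    u.1 *ᵥ chain u x k = chain u x k + chain u x (k + 1) := by rw [chain_succ, add_sub_cancel]

theorem chain_chain (u : GL ι F) (x : ι → F) (k j : ℕ) :
    chain u (chain u x k) j = chain u x (j + k) := by rw [chain, chain, chain, mulVec_mulVec, pow_add]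

theorem chain_add (u : GL ι F) (x y : ι → F) (k : ℕ) :
    chain u (x + y) k = chain u x k + chain u y k := mulVec_add _ _ _

theorem chain_smul (u : GL ι F) (c : F) (x : ι → F) (k : ℕ) :
    chain u (c • x) k = c • chain u x k := mulVec_smul _ _ _

theorem chain_zero_vec (u : GL ι F) (k : ℕ) : chain u (0 : ι → F) k = 0 := mulVec_zero _

theorem chain_mulVec (u : GL ι F) (x : ι → F) (k : ℕ) :
    chain u (u.1 *ᵥ x) k = u.1 *ᵥ chain u x k := by
  rw [chain, chain, mulVec_mulVec, mulVec_mulVec]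
  congr 1
  exact (((Commute.refl u.1).sub_left (Commute.one_left _)).pow_left k).eq

theorem chain_eq_zero_of_le {u : GL ι F} {x : ι → F} {k j : ℕ} (h : chain u x k = 0) (hj : k ≤ j) :
    chain u x j = 0 := by rw [← Nat.sub_add_cancel hj, ← chain_chain, h, chain_zero_vec]

theorem chain_mem {u : GL ι F} {Z : Submodule F (ι → F)} (hZ : ∀ x ∈ Z, u.1 *ᵥ x ∈ Z) {x : ι → F}
    (hx : x ∈ Z) (k : ℕ) : chain u x k ∈ Z := by
  induction k with
  | zero => simpa
  | succ k ih => rw [chain_succ]; exact Z.sub_mem (hZ _ ih) ih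

theorem chain_conj (g u : GL ι F) (x : ι → F) (k : ℕ) :
    chain (g * u * g⁻¹) (g.1 *ᵥ x) k = g.1 *ᵥ chain u x k := by
  rw [chain, conj_sub_one_pow, ← mulVec_mulVec, ← mulVec_mulVec, GL_inv_mulVec_mulVec, chain]

theorem linearIndependent_chain {u : GL ι F} {x : ι → F} {m : ℕ} (h0 : chain u x (m + 1) = 0)
    (h1 : chain u x m ≠ 0) : LinearIndependent F fun i : Fin (m + 1) => chain u x i := by
  refine Fintype.linearIndependent_iff.2 fun a ha i => ?_
  induction i using Fin.strong_induction_on with | _ i ih => ?_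
  have := congrArg (fun y => (u.1 - 1) ^ (m - i.1) *ᵥ y) ha
  simp only [mulVec_zero] at this
  rw [mulVec_sum, Finset.sum_eq_single i] at this
  · rw [mulVec_smul] at this
    change a i • chain u (chain u x i) (m - i) = 0 at this
    rwa [chain_chain, Nat.sub_add_cancel (Nat.le_of_lt_succ i.2), smul_eq_zero_iff_left h1] at this
  · intro j _ hj
    rcases lt_or_gt_of_ne hj with h | h
    · rw [ih j h, zero_smul, mulVec_zero]
    · rw [mulVec_smul]
      change a j • chain u (chain u x j) (m - i) = 0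
      rw [chain_chain, chain_eq_zero_of_le h0 (by
        have := Fin.lt_def.1 h
        omega), smul_zero]
  · simp

theorem lt_finrank_of_chain {u : GL ι F} {N : ℕ} (hN : (u.1 - 1) ^ N = 0) {Z : Submodule F (ι → F)}
    (hZ : ∀ x ∈ Z, u.1 *ᵥ x ∈ Z) {x : ι → F} (hx : x ∈ Z) {j : ℕ} (hj : chain u x j ≠ 0) :
    j < finrank F Z := by
  classical
  have hex : ∃ k, chain u x k = 0 := ⟨N, by rw [chain, hN, zero_mulVec]⟩
  obtain ⟨m, hm⟩ : ∃ m, Nat.find hex = m + 1 := Nat.exists_eq_succ_of_ne_zero fun h0 =>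
    hj (chain_eq_zero_of_le (h0 ▸ Nat.find_spec hex) (Nat.zero_le j))
  have h0 : chain u x (m + 1) = 0 := hm ▸ Nat.find_spec hex
  have h1 := linearIndependent_chain h0 (Nat.find_min hex (by omega))
  have h2 : LinearIndependent F fun i : Fin (m + 1) => (⟨chain u x i, chain_mem hZ hx i⟩ : Z) :=
    LinearIndependent.of_comp Z.subtype h1
  have h3 := h2.fintype_card_le_finrank
  rw [Fintype.card_fin] at h3
  by_contra hc
  exact hj (chain_eq_zero_of_le h0 (by omega))

variable {σ : F →+* F} {ε : F} {f : (ι → F) → (ι → F) → F}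

theorem form_chain_left (h : SForm σ ε f) {u : GL ι F} (hu : u ∈ iso f) (k : ℕ) (x y : ι → F) :
    f (chain u x k) y = (-1) ^ k * f ((u ^ k).1 *ᵥ x) (chain u y k) := by
  induction k generalizing x y with
  | zero => simp
  | succ k ih =>
    have h1 : ∀ x y, f (u.1 *ᵥ x - x) y = -f (u.1 *ᵥ x) (u.1 *ᵥ y - y) := fun x y => by
      rw [h.sub_left, h.sub_right, hu]; ring
    rw [chain_succ, h1, ← chain_mulVec, ih, ← GL_mul_mulVec, ← pow_succ,
      show u.1 *ᵥ y - y = chain u y 1 by rw [chain_succ, chain_zero], chain_chain]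
    ring

theorem form_chain_eq_zero (h : SForm σ ε f) {u : GL ι F} (hu : u ∈ iso f) {k : ℕ} {y : ι → F}
    (hy : chain u y k = 0) (x : ι → F) : f (chain u x k) y = 0 := by
  rw [form_chain_left h hu, hy, h.zero_right, mul_zero]

/-- A regular unipotent isometry with a generator `x`. -/
structure Rg (σ : F →+* F) (ε : F) (f : (ι → F) → (ι → F) → F) (u : GL ι F) (x : ι → F) (N : ℕ) :
    Prop where
  form : SForm σ ε f
  mem : u ∈ iso f
  card : Fintype.card ι = N + 1
  nil : (u.1 - 1) ^ (N + 1) = 0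
  ne : chain u x N ≠ 0

namespace Rg

variable {u : GL ι F} {x : ι → F} {N : ℕ}

theorem chain_top (h : Rg σ ε f u x N) (y : ι → F) {k : ℕ} (hk : N < k) : chain u y k = 0 :=
  chain_eq_zero_of_le (k := N + 1) (by rw [chain, h.nil, zero_mulVec]) hk

theorem perp (h : Rg σ ε f u x N) (y z : ι → F) {i j : ℕ} (hij : N < i + j) :
    f (chain u y i) (chain u z j) = 0 :=
  form_chain_eq_zero h.form h.mem (by rw [chain_chain, h.chain_top z hij]) y

theorem ne_of_le (h : Rg σ ε f u x N) {k : ℕ} (hk : k ≤ N) : chain u x k ≠ 0 := fun h0 =>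
  h.ne (chain_eq_zero_of_le h0 hk)

theorem fix (h : Rg σ ε f u x N) : u.1 *ᵥ chain u x N = chain u x N := by
  rw [mulVec_chain, h.chain_top x (Nat.lt_succ_self N), add_zero]

theorem li (h : Rg σ ε f u x N) : LinearIndependent F fun i : Fin (N + 1) => chain u x i :=
  linearIndependent_chain (h.chain_top x (Nat.lt_succ_self N)) h.ne

theorem eq_top (h : Rg σ ε f u x N) {Z : Submodule F (ι → F)} (hZ : ∀ x ∈ Z, u.1 *ᵥ x ∈ Z)
    (hx : x ∈ Z) : Z = ⊤ := by
  have := lt_finrank_of_chain h.nil hZ hx h.ne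
  exact Submodule.eq_top_of_finrank_eq (le_antisymm (Submodule.finrank_le Z) (by
    rw [finrank_fintype_fun_eq_card, h.card]; omega))

theorem eq_zero (h : Rg σ ε f u x N) {v : ι → F} (hv : ∀ k : ℕ, f ((u ^ k).1 *ᵥ x) v = 0) : v = 0 := by
  let Z : Submodule F (ι → F) :=
    { carrier := {y | ∀ k : ℕ, f ((u ^ k).1 *ᵥ y) v = 0}
      add_mem' := fun ha hb k => by rw [mulVec_add, h.form.add_left, ha k, hb k, add_zero]
      zero_mem' := fun k => by rw [mulVec_zero, h.form.zero_left]
      smul_mem' := fun c y hy k => by rw [mulVec_smul, h.form.smul_left, hy k, mul_zero] }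
  have hZ : Z = ⊤ := h.eq_top (fun y hy k => by rw [← GL_mul_mulVec, ← pow_succ]; exact hy _) hv
  exact h.form.nondeg v fun y => by simpa using (hZ ▸ Submodule.mem_top : y ∈ Z) 0

theorem delta_ne (h : Rg σ ε f u x N) : f x (chain u x N) ≠ 0 := fun h0 => by
  refine h.ne (h.eq_zero fun k => ?_)
  induction k with
  | zero => simpa
  | succ k ih => rw [pow_succ', GL_mul_mulVec, ← h.fix, h.mem, ih]

theorem conj (h : Rg σ ε f u x N) {g : GL ι F} (hg : g ∈ iso f) :
    Rg σ ε f (g * u * g⁻¹) (g.1 *ᵥ x) N where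
  form := h.form
  mem := mul_mem (mul_mem hg h.mem) (inv_mem hg)
  card := h.card
  nil := by rw [conj_sub_one_pow, h.nil, mul_zero, zero_mul]
  ne := by rw [chain_conj]; exact GL_mulVec_ne_zero g h.ne

theorem smul (h : Rg σ ε f u x N) {c : F} (hc : c ≠ 0) : Rg σ ε f u (c • x) N :=
  ⟨h.form, h.mem, h.card, h.nil, by rw [chain_smul]; exact smul_ne_zero hc h.ne⟩

/-- An invariant subspace of the perpendicular of the fixed vector is everything once it is not
perpendicular to the second vector of the flag. -/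
theorem mem_of_perp (h : Rg σ ε f u x (N + 1)) {Z : Submodule F (ι → F)}
    (hZ : ∀ x ∈ Z, u.1 *ᵥ x ∈ Z) (hZ' : ∀ z ∈ Z, f z (chain u x (N + 1)) = 0) {y : ι → F}
    (hy : y ∈ Z) (hy' : f y (chain u x N) ≠ 0) {z : ι → F} (hz : f z (chain u x (N + 1)) = 0) :
    z ∈ Z := by
  by_contra hc
  have h1 := lt_finrank_of_chain h.nil hZ hy (j := N) fun h0 =>
    hy' (h.form.map_eq_zero.1 (form_chain_eq_zero h.form h.mem h0 x))
  have h2 : finrank F Z < finrank F ↥(Z ⊔ Submodule.span F {z}) :=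
    Submodule.finrank_lt_finrank_of_lt (lt_of_le_of_ne le_sup_left fun h3 =>
      hc (h3 ▸ Submodule.mem_sup_right (Submodule.mem_span_singleton_self z)))
  have h3 : Z ⊔ Submodule.span F {z} = ⊤ :=
    Submodule.eq_top_of_finrank_eq (le_antisymm (Submodule.finrank_le _) (by
      rw [finrank_fintype_fun_eq_card, h.card]; omega))
  obtain ⟨a, ha, b, hb, hab⟩ := Submodule.mem_sup.1 (h3 ▸ Submodule.mem_top : x ∈ Z ⊔ _)
  obtain ⟨c, rfl⟩ := Submodule.mem_span_singleton.1 hb
  refine h.delta_ne ?_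
  nth_rewrite 1 [← hab]
  rw [h.form.add_left, h.form.smul_left, hZ' a ha, hz, mul_zero, add_zero]

theorem li_two (h : Rg σ ε f u x N) {i j : ℕ} (hij : i < j) (hj : j ≤ N) {a b : F}
    (hab : a • chain u x i + b • chain u x j = 0) : a = 0 ∧ b = 0 := by
  have h1 := congrArg (fun y => chain u y (N - i)) hab
  simp only [chain_add, chain_smul, chain_chain, chain_zero_vec] at h1
  rw [Nat.sub_add_cancel (by omega), h.chain_top x (k := N - i + j) (by omega), smul_zero,
    add_zero, smul_eq_zero_iff_left h.ne] at h1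
  rw [h1, zero_smul, zero_add, smul_eq_zero_iff_left (h.ne_of_le hj)] at hab
  exact ⟨h1, hab⟩

theorem li_three (h : Rg σ ε f u x N) {i j k : ℕ} (hij : i < j) (hjk : j < k) (hk : k ≤ N)
    {a b c : F} (hab : a • chain u x i + b • chain u x j + c • chain u x k = 0) :
    a = 0 ∧ b = 0 ∧ c = 0 := by
  have h1 := congrArg (fun y => chain u y (N - i)) hab
  simp only [chain_add, chain_smul, chain_chain, chain_zero_vec] at h1
  rw [Nat.sub_add_cancel (by omega), h.chain_top x (k := N - i + j) (by omega),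
    h.chain_top x (k := N - i + k) (by omega), smul_zero, smul_zero, add_zero,
    add_zero, smul_eq_zero_iff_left h.ne] at h1
  rw [h1, zero_smul, zero_add] at hab
  exact ⟨h1, h.li_two hjk hk hab⟩

end Rg

/-- A finite field has a non-zero element whose square generates it as a ring. -/
theorem exists_ringGen_sq [Finite F] : ∃ μ : F, μ ≠ 0 ∧ RingGen (μ ^ 2) ∧
    ∀ c : F, c ≠ 0 → ∃ k : ℕ, μ ^ k = c := by
  obtain ⟨μ, h0, -, h1⟩ := exists_ringGen (F := F)
  refine ⟨μ, h0, fun R hR => ?_, h1⟩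
  have hsq : ∀ c : F, c ^ 2 ∈ R := fun c => by
    rcases eq_or_ne c 0 with rfl | hc
    · simp
    · obtain ⟨k, rfl⟩ := h1 c hc
      rw [← pow_mul, mul_comm, pow_mul]
      exact pow_mem hR k
  refine eq_top_iff.2 fun c _ => ?_
  by_cases h2 : (2 : F) = 0
  · have : CharP F 2 := CharTwo.of_one_ne_zero_of_two_eq_zero one_ne_zero h2
    obtain ⟨d, rfl⟩ := (frobeniusEquiv F 2).surjective c
    exact hsq d
  · refine subring_mem_of_mul (r := 2) (by simp) h2 ?_
    convert R.sub_mem (R.sub_mem (hsq (c + 1)) (hsq c)) R.one_mem using 1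
    ring

end Cfsg.Lib.Linear
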